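import Mathlib
import Cfsg.Prelude.Def_TwoFusion
import Cfsg.Agent.H335.CycInt

/-!
# Fusion of involutions if distinct Sylow 2-subgroups meet in cyclic groups

`CycInt.fusion` : if the Sylow 2-subgroup `S` is not cyclic, then `N(S)` controls the fusion of the involutions of `S`.
`omz S` : the elements of `Z(S)` of square one; `CycInt.closed` : it is strongly closed in `S`.
-/

set_option autoImplicit false

namespace Cfsg.Agent.H335

open Subgroup

variable {G : Type*} [Group G]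

/-- a cyclic group has at most one involution -/
theorem eq_of_cyclic {C : Type*} [Group C] [Finite C] [IsCyclic C] {x y : C} (hx : orderOf x = 2) (hy : orderOf y = 2) :
    x = y := by
  classical
  have := Fintype.ofFinite C
  by_contra hne
  have hx1 : x ≠ 1 := by rintro rfl; simp at hx
  have hy1 : y ≠ 1 := by rintro rfl; simp at hy
  have h4 : ({1, x, y} : Finset C) ⊆ Finset.univ.filter fun a : C => a ^ 2 = 1 := by
    intro a ha
    simp only [Finset.mem_insert, Finset.mem_singleton] at ha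
    rw [Finset.mem_filter]
    refine ⟨Finset.mem_univ _, ?_⟩
    rcases ha with rfl | rfl | rfl
    · exact one_pow 2
    · rw [← hx]; exact pow_orderOf_eq_one _
    · rw [← hy]; exact pow_orderOf_eq_one _
  have h5 := Finset.card_le_card h4
  have h6 := IsCyclic.card_pow_eq_one_le (α := C) (n := 2) (by norm_num)
  rw [Finset.card_insert_of_notMem (by simp [Ne.symm hx1, Ne.symm hy1]),
    Finset.card_insert_of_notMem (by simp [hne]), Finset.card_singleton] at h5
  omega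

/-- a nontrivial 2-subgroup has a central involution -/
theorem exists_central_involution [Finite G] {S : Subgroup G} (hS : IsPGroup 2 S) (hne : S ≠ ⊥) :
    ∃ z ∈ S, orderOf z = 2 ∧ ∀ s ∈ S, s * z = z * s := by
  have h2 : Fact (Nat.Prime 2) := ⟨Nat.prime_two⟩
  have hnt : Nontrivial S := (Subgroup.nontrivial_iff_ne_bot S).2 hne
  have h3 : Nontrivial (center S) := hS.center_nontrivial
  have h4 : IsPGroup 2 (center S) := hS.to_subgroup _
  obtain ⟨n, hn⟩ := IsPGroup.iff_card.1 h4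
  have h5 : 2 ∣ Nat.card (center S) := by
    have h6 : 1 < Nat.card (center S) := Finite.one_lt_card
    rw [hn] at h6 ⊢
    refine dvd_pow_self 2 ?_
    rintro rfl
    simp at h6
  obtain ⟨z, hz⟩ := exists_prime_orderOf_dvd_card' 2 h5
  refine ⟨((z : S) : G), (z : S).2, ?_, ?_⟩
  · rw [← hz, Subgroup.orderOf_coe, Subgroup.orderOf_coe]
  · intro s hs
    have := mem_center_iff.1 z.2 ⟨s, hs⟩
    exact congrArg Subtype.val this

/-- an involution of a noncyclic 2-subgroup has a noncyclic centraliser -/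
theorem not_isCyclic_cent [Finite G] {S : Subgroup G} (hS : IsPGroup 2 S) (hnc : ¬ IsCyclic S) {x : G} (hx : x ∈ S)
    (hx2 : orderOf x = 2) : ¬ IsCyclic ↥(S ⊓ centralizer ({x} : Set G)) := by
  intro hc
  have hne : S ≠ ⊥ := by
    rintro rfl
    exact hnc inferInstance
  obtain ⟨z, hz, hz2, hzc⟩ := exists_central_involution hS hne
  have hxC : x ∈ S ⊓ centralizer ({x} : Set G) := ⟨hx, mem_centralizer_singleton_iff.2 rfl⟩
  have hzC : z ∈ S ⊓ centralizer ({x} : Set G) := ⟨hz, mem_centralizer_singleton_iff.2 (hzc x hx).symm⟩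
  have h1 : (⟨x, hxC⟩ : ↥(S ⊓ centralizer ({x} : Set G))) = ⟨z, hzC⟩ := by
    apply eq_of_cyclic
    · rw [Subgroup.orderOf_mk]; exact hx2
    · rw [Subgroup.orderOf_mk]; exact hz2
  have h2 : x = z := congrArg Subtype.val h1
  apply hnc
  have h3 : S ⊓ centralizer ({x} : Set G) = S := by
    rw [inf_eq_left]
    intro s hs
    rw [mem_centralizer_singleton_iff, h2]
    exact hzc s hs
  rwa [h3] at hc

/-- `N(S)` controls the fusion of involutions in `S` -/
theorem CycInt.fusion [Finite G] (h : CycInt G) (S : Sylow 2 G) (hnc : ¬ IsCyclic (S : Subgroup G)) {x g : G}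
    (hx : x ∈ (S : Subgroup G)) (hx2 : orderOf x = 2) (hg : g * x * g⁻¹ ∈ (S : Subgroup G)) :
    ∃ n ∈ normalizer ((S : Subgroup G) : Set G), n * x * n⁻¹ = g * x * g⁻¹ := by
  have h2 : Fact (Nat.Prime 2) := ⟨Nat.prime_two⟩
  set y := g * x * g⁻¹ with hy
  have hy2 : orderOf y = 2 := by
    rw [← hx2]
    exact orderOf_injective (MulAut.conj g).toMonoidHom (MulAut.conj g).injective x
  set C := centralizer ({x} : Set G) with hC
  set C₁ := (S : Subgroup G) ⊓ C with hC₁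
  set C₂ := (S : Subgroup G) ⊓ centralizer ({y} : Set G) with hC₂
  have hn1 : ¬ IsCyclic C₁ := not_isCyclic_cent S.2 hnc hx hx2
  have hn2 : ¬ IsCyclic C₂ := not_isCyclic_cent S.2 hnc hg hy2
  -- Sylow 2-subgroups of `C`
  have h3 : IsPGroup 2 (C₁.subgroupOf C) := (S.2.to_le inf_le_left).comap_of_injective _ C.subtype_injective
  set D₂ := C₂.map (MulAut.conj g⁻¹).toMonoidHom with hD₂
  have hD₂C : D₂ ≤ C := by
    rintro _ ⟨c, hc, rfl⟩
    have h5 : c * y = y * c := mem_centralizer_singleton_iff.1 hc.2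
    rw [hC, mem_centralizer_singleton_iff]
    change g⁻¹ * c * g⁻¹⁻¹ * x = x * (g⁻¹ * c * g⁻¹⁻¹)
    have h6 : x = g⁻¹ * y * g := by rw [hy]; group
    rw [h6, inv_inv]
    calc g⁻¹ * c * g * (g⁻¹ * y * g) = g⁻¹ * (c * y) * g := by group
      _ = g⁻¹ * (y * c) * g := by rw [h5]
      _ = _ := by group
  have h4 : IsPGroup 2 (D₂.subgroupOf C) :=
    ((S.2.to_le inf_le_left).map _).comap_of_injective _ C.subtype_injective
  obtain ⟨Q₁, hQ₁⟩ := h3.exists_le_sylow
  obtain ⟨Q₂, hQ₂⟩ := h4.exists_le_sylow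
  obtain ⟨c, hc⟩ := MulAction.exists_smul_eq C Q₁ Q₂
  -- `Q₁ ≤ S`
  have hQ₁S : (Q₁ : Subgroup C).map C.subtype ≤ S := by
    obtain ⟨T, hT⟩ := (Q₁.2.map C.subtype).exists_le_sylow
    have h5 : C₁ ≤ T := by
      refine le_trans ?_ hT
      intro a ha
      exact ⟨⟨a, ha.2⟩, hQ₁ ha, rfl⟩
    rw [h.eq_of_le hn1 (inf_le_left : C₁ ≤ S) h5]
    exact hT
  have hQ₂S : ((Q₂ : Subgroup C).map C.subtype).map (MulAut.conj g).toMonoidHom ≤ S := by
    obtain ⟨T, hT⟩ := ((Q₂.2.map C.subtype).map (MulAut.conj g).toMonoidHom).exists_le_sylow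
    have h5 : C₂ ≤ T := by
      refine le_trans ?_ hT
      intro a ha
      have h6 : g⁻¹ * a * g ∈ D₂ := ⟨a, ha, by simp⟩
      refine ⟨g⁻¹ * a * g, ⟨⟨_, hD₂C h6⟩, hQ₂ h6, rfl⟩, ?_⟩
      change g * (g⁻¹ * a * g) * g⁻¹ = a
      group
    rw [h.eq_of_le hn2 (inf_le_left : C₂ ≤ S) h5]
    exact hT
  -- `g c` normalises `S`
  have hgc : (g * c : G) • S = S := by
    have h5 : C₁.map (MulAut.conj (g * c : G)).toMonoidHom ≤ S := by
      refine le_trans ?_ hQ₂S
      rintro _ ⟨a, ha, rfl⟩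
      have h7 : (⟨a, ha.2⟩ : C) ∈ (Q₁ : Subgroup C) := hQ₁ ha
      refine ⟨(c : G) * a * (c : G)⁻¹, ⟨c * ⟨a, ha.2⟩ * c⁻¹, ?_, rfl⟩, ?_⟩
      · rw [SetLike.mem_coe, ← hc, mem_smul_sylow]
        have h8 : c⁻¹ * (c * ⟨a, ha.2⟩ * c⁻¹) * c = ⟨a, ha.2⟩ := by group
        rw [h8]; exact h7
      · change g * (c * a * (c : G)⁻¹) * g⁻¹ = g * c * a * (g * c)⁻¹
        group
    have h6 : C₁.map (MulAut.conj (g * c : G)).toMonoidHom ≤ ((g * c : G) • S : Sylow 2 G) := by
      rintro _ ⟨a, ha, rfl⟩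
      rw [mem_smul_sylow]
      change (g * c : G)⁻¹ * (g * c * a * (g * c : G)⁻¹) * (g * c) ∈ _
      have h8 : (g * c : G)⁻¹ * (g * c * a * (g * c : G)⁻¹) * (g * c) = a := by group
      rw [h8]
      exact ha.1
    refine (h.eq_of_le ?_ h5 h6).symm
    intro hcyc
    apply hn1
    exact isCyclic_of_injective
      ((C₁.equivMapOfInjective (MulAut.conj (g * c : G)).toMonoidHom (MulAut.conj (g * c : G)).injective).toMonoidHom)
      (MulEquiv.injective _)
  refine ⟨g * c, ?_, ?_⟩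
  · exact Sylow.smul_eq_iff_mem_normalizer.1 hgc
  · have h9 : (c : G) * x = x * c := mem_centralizer_singleton_iff.1 c.2
    calc g * c * x * (g * c : G)⁻¹ = g * (c * x) * (c : G)⁻¹ * g⁻¹ := by group
      _ = g * (x * c) * (c : G)⁻¹ * g⁻¹ := by rw [h9]
      _ = _ := by rw [hy]; group

/-- the elements of square one in `Z(S)` -/
def omz (S : Subgroup G) : Subgroup G where
  carrier := {x | x ∈ S ∧ (∀ s ∈ S, s * x = x * s) ∧ x * x = 1}
  mul_mem' := by
    rintro a b ⟨ha, ha2, ha3⟩ ⟨hb, hb2, hb3⟩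
    refine ⟨mul_mem ha hb, fun s hs => ?_, ?_⟩
    · rw [← mul_assoc, ha2 s hs, mul_assoc, hb2 s hs, mul_assoc]
    · calc a * b * (a * b) = a * (b * a) * b := by group
        _ = a * (a * b) * b := by rw [ha2 b hb]
        _ = (a * a) * (b * b) := by group
        _ = 1 := by rw [ha3, hb3, one_mul]
  one_mem' := ⟨one_mem _, fun s _ => by simp, by simp⟩
  inv_mem' := by
    rintro a ⟨ha, ha2, ha3⟩
    have : a⁻¹ = a := inv_eq_of_mul_eq_one_left ha3
    rw [this]
    exact ⟨ha, ha2, ha3⟩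

theorem mem_omz {S : Subgroup G} {x : G} :
    x ∈ omz S ↔ x ∈ S ∧ (∀ s ∈ S, s * x = x * s) ∧ x * x = 1 := Iff.rfl

theorem omz_le (S : Subgroup G) : omz S ≤ S := fun _ hx => hx.1

theorem omz_comm (S : Subgroup G) : IsMulCommutative (omz S) :=
  ⟨⟨fun a b => Subtype.ext (b.2.2.1 a a.2.1)⟩⟩

theorem conj_mem_omz {S : Subgroup G} {n x : G} (hn : n ∈ normalizer (S : Set G)) (hx : x ∈ omz S) :
    n * x * n⁻¹ ∈ omz S := by
  obtain ⟨h1, h2, h3⟩ := hx
  refine ⟨(mem_normalizer_iff.1 hn x).1 h1, fun s hs => ?_, ?_⟩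
  · have h4 : n⁻¹ * s * n ∈ S := by
      have := (mem_normalizer_iff.1 (inv_mem hn) s).1 hs
      rwa [inv_inv] at this
    calc s * (n * x * n⁻¹) = n * ((n⁻¹ * s * n) * x) * n⁻¹ := by group
      _ = n * (x * (n⁻¹ * s * n)) * n⁻¹ := by rw [h2 _ h4]
      _ = _ := by group
  · calc n * x * n⁻¹ * (n * x * n⁻¹) = n * (x * x) * n⁻¹ := by group
      _ = 1 := by rw [h3]; group

theorem orderOf_eq_two {x : G} (h1 : x ≠ 1) (h2 : x * x = 1) : orderOf x = 2 :=
  orderOf_eq_prime (by rw [pow_two, h2]) h1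

theorem CycInt.closed [Finite G] (h : CycInt G) (S : Sylow 2 G) (hnc : ¬ IsCyclic (S : Subgroup G)) :
    Cfsg.IsStronglyClosed (omz (S : Subgroup G)) (S : Subgroup G) := by
  refine ⟨omz_le _, fun x hx g hg => ?_⟩
  by_cases hx1 : x = 1
  · rw [hx1]
    simp
  · obtain ⟨n, hn, h1⟩ := h.fusion S hnc hx.1 (orderOf_eq_two hx1 hx.2.2) hg
    rw [← h1]
    exact conj_mem_omz hn hx

theorem omz_ne_bot [Finite G] {S : Subgroup G} (hS : IsPGroup 2 S) (hne : S ≠ ⊥) : omz S ≠ ⊥ := by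
  obtain ⟨z, hz, hz2, hzc⟩ := exists_central_involution hS hne
  intro h
  have h1 : z ∈ omz S := ⟨hz, hzc, by rw [← pow_two, ← hz2]; exact pow_orderOf_eq_one z⟩
  rw [h, mem_bot] at h1
  rw [h1, orderOf_one] at hz2
  omega

end Cfsg.Agent.H335
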