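import Mathlib
import Cfsg.Agent.OddHalf.D4.UnB.Field
import Cfsg.Agent.TwoGenCore.U3
import Cfsg.Agent.H335.CycInt

/-!
# Automorphisms of `PSU 3 F q`, `q ≥ 4` even, acting trivially on `N(T) / T`

`inner` : an automorphism of 2-power order acting trivially on `N(T) / T`, `T` a Sylow 2-subgroup, is inner.
-/

set_option autoImplicit false

namespace Cfsg.Agent.H335.PSUAut

open Cfsg Cfsg.Agent.LieClassical.HermBasic Cfsg.Agent.LieClassical.HermSiegel
  Cfsg.Agent.LieClassical.HermGen Cfsg.Agent.LieClassical.SUBasic Matrix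
  Cfsg.Agent.ClassicalGeometry.PSUAutBasic Cfsg.Agent.ClassicalGeometry.PSUAutSylow
  Cfsg.Agent.ClassicalGeometry.PSUAutUnip Cfsg.Agent.ClassicalGeometry.PSUAutPhi
  Cfsg.Agent.ClassicalGeometry.PSUAutExt Cfsg.Agent.KFacts.Unit

open Cfsg.Agent.ClassicalGeometry.PSUAutCount (gm semiConj toAut herm_gm act_semiConj herm_semi
  gm_inv_mulVec gm_mulVec_inv)

variable {F : Type*} [Field F] [Fintype F] {q : ℕ} [CharP F 2]

/-- a field automorphism `ρ` with `(ρ a)³ = a³` for all `a` is trivial, if the characteristic is 2 and there are more than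
four elements -/
theorem ringEquiv_eq_one (h4 : 4 < Fintype.card F) (ρ : F ≃+* F) (h : ∀ a : F, ρ a ^ 3 = a ^ 3) : ρ = 1 := by
  classical
  have h2 : (2 : F) = 0 := CharTwo.two_eq_zero
  have key : ∀ a : F, ρ a = a ∨ ρ a = a + 1 := by
    intro a
    have h1 := h (a + 1)
    have h3 := h a
    rw [map_add, map_one] at h1
    have h5 : (ρ a - a) * (ρ a - (a + 1)) = 0 := by
      linear_combination h1 - h3 + (-(ρ a) ^ 2 - a * ρ a - 2 * ρ a + 2 * a ^ 2 + 2 * a) * h2
    rcases mul_eq_zero.1 h5 with h6 | h6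
    · exact Or.inl (sub_eq_zero.1 h6)
    · exact Or.inr (sub_eq_zero.1 h6)
  by_contra hne
  have hex : ∃ a, ρ a ≠ a := by
    by_contra hcon
    push Not at hcon
    exact hne (RingEquiv.ext hcon)
  obtain ⟨a, ha⟩ := hex
  have ha1 : ρ a = a + 1 := (key a).resolve_left ha
  have hfix : ∀ b : F, ρ b = b → b = 0 ∨ b = 1 := by
    intro b hb
    rcases key (b * a) with h1 | h1
    · left
      rw [map_mul, hb, ha1] at h1
      linear_combination h1
    · right
      rw [map_mul, hb, ha1] at h1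
      linear_combination h1
  have hall : (Finset.univ : Finset F) ⊆ {0, 1, a, a + 1} := by
    intro b _
    simp only [Finset.mem_insert, Finset.mem_singleton]
    rcases key b with h1 | h1
    · rcases hfix b h1 with h3 | h3
      · exact Or.inl h3
      · exact Or.inr (Or.inl h3)
    · have h5 : ρ (a + b) = a + b := by
        rw [map_add, ha1, h1]
        linear_combination h2
      rcases hfix _ h5 with h3 | h3
      · right; right; left
        linear_combination h3 - a * h2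
      · right; right; right
        linear_combination h3 - a * h2
  have h7 := Finset.card_le_card hall
  have h8 : ({0, 1, a, a + 1} : Finset F).card ≤ 4 := Finset.card_le_four
  rw [Finset.card_univ] at h7
  omega

/-- `RR u` is not cyclic -/
theorem not_cyclic_RR (hF : Fintype.card F = q ^ 2) (hq : 4 ≤ q) {u : Fin 3 → F} (hu0 : u ≠ 0)
    (hu : hermForm 3 F q u u = 0) : ¬ IsCyclic ↥(RR hF u hu) := by
  classical
  intro hc
  have heq : ∃ μ : F, μ ≠ 0 ∧ μ ≠ 1 ∧ μ + μ ^ q = 0 := by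
    by_contra hcon
    push Not at hcon
    have hcard := card_fixed hF
    rw [Nat.card_eq_fintype_card, Fintype.card_subtype] at hcard
    have hsub : (Finset.univ.filter fun x : F => x ^ q = x) ⊆ {0, 1} := by
      intro x hx
      rw [Finset.mem_filter] at hx
      simp only [Finset.mem_insert, Finset.mem_singleton]
      by_contra hx2
      push Not at hx2
      exact hcon x hx2.1 hx2.2 (OddHalf.D4.UnB.Field.fixed_iff.2 hx.2)
    have h5 := Finset.card_le_card hsub
    have h6 : ({0, 1} : Finset F).card ≤ 2 := Finset.card_le_two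
    omega
  obtain ⟨μ, h0, h1, hμ⟩ := heq
  have h1t : (1 : F) + 1 ^ q = 0 := OddHalf.D4.UnB.Field.fixed_iff.2 (one_pow q)
  have hsq : ∀ x : ↥(RR hF u hu), x ^ 2 = 1 := by
    rintro ⟨x, hx⟩
    obtain ⟨ν, hν, rfl⟩ := mem_RR.1 hx
    apply Subtype.ext
    change (pr 3 F q (transv hF u hu ν hν)) ^ 2 = 1
    rw [← map_pow, pow_two, transv_mul, ← map_one (pr 3 F q)]
    congr 1
    apply ext_act
    intro v
    rw [act_transv, CharTwo.add_self_eq_zero, zero_mul, zero_smul, add_zero, act_one]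
  have hmem : ∀ (ν : F) (hν : ν + ν ^ q = 0), pr 3 F q (transv hF u hu ν hν) ∈ RR hF u hu := fun ν hν =>
    mem_RR.2 ⟨ν, hν, rfl⟩
  have h0t : (0 : F) + 0 ^ q = 0 := by rw [zero_pow (by omega), add_zero]
  have hzero : pr 3 F q (transv hF u hu 0 h0t) = 1 := by
    rw [← map_one (pr 3 F q)]
    congr 1
    apply ext_act
    intro v
    rw [act_transv, zero_mul, zero_smul, add_zero, act_one]
  rcases OddHalf.D4.UnB.Field.cyc_two (hsq ⟨_, hmem μ hμ⟩) (hsq ⟨_, hmem 1 h1t⟩) with h5 | h5 | h5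
  · have h6 := congrArg Subtype.val h5
    change pr 3 F q (transv hF u hu μ hμ) = 1 at h6
    rw [← hzero] at h6
    exact h0 (OddHalf.D4.UnB.Field.transv_pr_inj hF le_rfl hu0 hu h6)
  · have h6 := congrArg Subtype.val h5
    change pr 3 F q (transv hF u hu 1 h1t) = 1 at h6
    rw [← hzero] at h6
    exact one_ne_zero (OddHalf.D4.UnB.Field.transv_pr_inj hF le_rfl hu0 hu h6)
  · have h6 := congrArg Subtype.val (inv_mul_eq_one.1 h5)
    exact h1 (OddHalf.D4.UnB.Field.transv_pr_inj hF le_rfl hu0 hu h6)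

/-- **An automorphism of 2-power order acting trivially on `N(T) / T` is inner.** -/
theorem inner (hF : Fintype.card F = q ^ 2) (hq : 4 ≤ q) (hC : CycInt (PSU 3 F q)) (T : Sylow 2 (PSU 3 F q))
    (α : MulAut (PSU 3 F q)) (hα : ∃ k : ℕ, α ^ 2 ^ k = 1)
    (hN : ∀ x ∈ Subgroup.normalizer ((T : Subgroup (PSU 3 F q)) : Set (PSU 3 F q)), α x * x⁻¹ ∈ (T : Subgroup (PSU 3 F q))) :
    ∃ x, α = MulAut.conj x := by
  have h2p : Fact (Nat.Prime 2) := ⟨Nat.prime_two⟩
  have h32 : ¬ (3 = 3 ∧ q = 2) := by omega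
  obtain ⟨φ, hφ, hφ1, hφ2⟩ := exists_fieldHom' (F := F) (q := q) (n := 3) hF le_rfl h32
  obtain ⟨A, ρ, hA⟩ := Cfsg.Agent.ClassicalGeometry.PSUAutMain.exists_toAut (F := F) (q := q) (n := 3) hF le_rfl h32 α
  -- the Sylow subgroup
  obtain ⟨S, hS⟩ := exists_sylow_lift 2 T
  obtain ⟨u, hu0, hu, hfix⟩ := exists_fixed 2 hF (by omega) S.isPGroup'
  have hcent : cent (T : Subgroup (PSU 3 F q)) = RR hF u hu := by
    rw [← hS, cent_sylow 2 hF le_rfl S hu0 hu hfix]
    rfl
  have hαT : (T : Subgroup (PSU 3 F q)).map (α : PSU 3 F q →* PSU 3 F q) = T := by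
    have hle : (T : Subgroup (PSU 3 F q)).map (α : PSU 3 F q →* PSU 3 F q) ≤ T := by
      rintro _ ⟨x, hx, rfl⟩
      have h1 := hN x (Subgroup.le_normalizer hx)
      have h3 := mul_mem h1 hx
      rwa [inv_mul_cancel_right] at h3
    refine Subgroup.eq_of_le_of_card_ge hle ?_
    exact (Nat.card_congr ((T : Subgroup (PSU 3 F q)).equivMapOfInjective _ α.injective).toEquiv).le
  have hRR : (RR hF u hu).map (α : PSU 3 F q →* PSU 3 F q) = RR hF u hu := by
    rw [← hcent, cent_map, hαT]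
  -- the scalar `c`
  have h2 : hermForm 3 F q (gm A *ᵥ fun i => ρ (u i)) (gm A *ᵥ fun i => ρ (u i)) = 0 := by
    rw [herm_semi, hu, map_zero]
  have hne : (gm A *ᵥ fun i => ρ (u i)) ≠ 0 := by
    intro h3
    exact hu0 (sg_eq_zero A ρ h3)
  have h3 : RR hF u hu = RR hF (gm A *ᵥ fun i => ρ (u i)) h2 := by
    apply le_antisymm
    · intro x hx
      rw [← hRR] at hx
      obtain ⟨y, hy, rfl⟩ := hx
      have := (Cfsg.Agent.ClassicalGeometry.PSUAutMain.toAut_RR hF A ρ hu h2 rfl y).1 hy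
      rwa [← hA] at this
    · intro x hx
      obtain ⟨y, rfl⟩ := α.surjective x
      rw [hA] at hx
      have := (Cfsg.Agent.ClassicalGeometry.PSUAutMain.toAut_RR hF A ρ hu h2 rfl y).2 hx
      rw [← hRR]
      exact ⟨y, this, rfl⟩
  obtain ⟨c, hc0, hc⟩ := (RR_eq_iff hF le_rfl hu0 hne hu h2).1 h3
  have hcube : ∀ a : F, ρ a ^ 3 = a ^ 3 := by
    intro a
    by_cases ha : a = 0
    · rw [ha, map_zero]
    have hau : hermForm 3 F q (a • u) (a • u) = 0 := by rw [herm_smul_left, herm_smul_right, hu, mul_zero, mul_zero]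
    obtain ⟨g, -, hg⟩ := exists_map_iso hF (k := 3) (n := 3) le_rfl le_rfl (mem_coordSub_top u) (mem_coordSub_top (a • u))
      hu0 (smul_ne_zero ha hu0) hu hau
    -- `pr g ∈ N(T)`
    have hgN : pr 3 F q g ∈ Subgroup.normalizer ((T : Subgroup (PSU 3 F q)) : Set (PSU 3 F q)) := by
      refine Sylow.smul_eq_iff_mem_normalizer.1 ?_
      refine hC.eq_of_le (not_cyclic_RR hF hq hu0 hu) ?_ ?_
      · intro x hx
        rw [mem_smul_sylow]
        have h5 := ((normRR_iff hF le_rfl hu0 hu g).2 ⟨a, ha, hg⟩ x).1 hx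
        rw [← hcent] at h5
        exact h5.1
      · rw [← hcent]
        exact inf_le_left
    obtain ⟨s, hs, hsx⟩ : ∃ s ∈ (S : Subgroup (SU 3 F q)), pr 3 F q s = α (pr 3 F q g) * (pr 3 F q g)⁻¹ := by
      have h5 := hN _ hgN
      rw [← hS] at h5
      exact h5
    have h6 : pr 3 F q (semiConj A ρ g) = pr 3 F q (s * g) := by
      rw [map_mul, hsx, inv_mul_cancel_right, hA]
      rfl
    obtain ⟨z, hz, hzg⟩ : ∃ z ∈ Subgroup.center (SU 3 F q), semiConj A ρ g = s * g * z := by
      refine ⟨(s * g)⁻¹ * semiConj A ρ g, ?_, by group⟩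
      exact QuotientGroup.eq.1 h6.symm
    obtain ⟨ω, hω, hzω⟩ := Cfsg.Agent.TwoGenCore.U3.act_of_center hF hz
    have hsg : sg A ρ u = c • u := hc
    have hzω' : ∀ y, act z y = ω • y := hzω
    have h7 := act_semiConj' A ρ g u
    rw [hg, sg_smul, hsg, hzg, act_mul, hzω', act_smul, act_smul, act_mul, hg, act_smul, hfix s hs, smul_smul, smul_smul,
      smul_smul] at h7
    have h8 : ω * c * a = ρ a * c := smul_left_injective F hu0 h7
    have h9 : ρ a = ω * a := by
      apply mul_right_cancel₀ hc0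
      rw [← h8]; ring
    rw [h9, mul_pow, hω, one_mul]
  have hρ : ρ = 1 := by
    apply ringEquiv_eq_one _ ρ hcube
    rw [hF]
    nlinarith
  have heven : Even q := by
    obtain ⟨m, -, hm⟩ := FiniteField.card F 2
    have h1 : Even (q ^ 2) := by
      rw [← hF, hm]
      exact (even_two.pow_of_ne_zero m.ne_zero)
    exact (Nat.even_pow.1 h1).1
  obtain ⟨k, hk⟩ := hα
  refine hφ2 α (2 ^ k) (by rw [hA, hφ, hρ]) ?_ ⟨1, by rw [hk, map_one]⟩
  apply Nat.Coprime.pow_left
  rw [Nat.coprime_two_left]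
  exact heven.add_one

end Cfsg.Agent.H335.PSUAut
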